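import Cfsg.Agent.OD.Pre
import Cfsg.Agent.H6.Ly3C.O0
import Cfsg.Agent.H6.Ly3C.O1
set_option autoImplicit false
set_option maxRecDepth 100000
set_option Elab.async false
set_option linter.all false
namespace CfH6.Ly3C
open CfH6 CfH6.D MulAction
theorem iO0 : Rng (chkInvT (fun x => fO (Nat.succ x)) Mc3B.il 15 30800) 0 30800 := rng_of 0 240 80 30800 (by decide +kernel)
theorem rO0 : Rng (chkRelT (fun x => fO (Nat.succ x)) Mc3B.rels) 0 5760 := rng_of 0 45 0 5760 (by decide +kernel)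
theorem rO1 : Rng (chkRelT (fun x => fO (Nat.succ x)) Mc3B.rels) 5760 11520 := rng_of 5760 45 0 11520 (by decide +kernel)
theorem rO2 : Rng (chkRelT (fun x => fO (Nat.succ x)) Mc3B.rels) 11520 17280 := rng_of 11520 45 0 17280 (by decide +kernel)
theorem rO3 : Rng (chkRelT (fun x => fO (Nat.succ x)) Mc3B.rels) 17280 23040 := rng_of 17280 45 0 23040 (by decide +kernel)
theorem rO4 : Rng (chkRelT (fun x => fO (Nat.succ x)) Mc3B.rels) 23040 28800 := rng_of 23040 45 0 28800 (by decide +kernel)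
theorem rO5 : Rng (chkRelT (fun x => fO (Nat.succ x)) Mc3B.rels) 28800 30800 := rng_of 28800 15 80 30800 (by decide +kernel)
theorem dO0 : Rng (chkId fO) 0 30800 := rng_of 0 240 80 30800 (by decide +kernel)
theorem sO0 : Rng (chkSl fO Mc3D.sa Mc3D.sb 240 80) 16 33 := rng_of 16 0 17 33 (by decide +kernel)
theorem sO1 : Rng (chkSl fO Mc3D.sa Mc3D.sb 240 80) 33 50 := rng_of 33 0 17 50 (by decide +kernel)
end CfH6.Ly3C
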