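import Cfsg.Agent.OD.Pre
import Cfsg.Agent.H6.Ly3C.O0
import Cfsg.Agent.H6.Ly3C.O1
set_option autoImplicit false
set_option maxRecDepth 100000
set_option Elab.async false
set_option linter.all false
namespace CfH6.Ly3C
open CfH6 CfH6.D MulAction
theorem sO2 : Rng (chkSl fO Mc3D.sa Mc3D.sb 240 80) 50 64 := rng_of 50 0 14 64 (by decide +kernel)
end CfH6.Ly3C
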