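import Cfsg.Agent.OD.Pre
import Cfsg.Agent.H6.Ly3C.O0
import Cfsg.Agent.H6.Ly3C.O1
import Cfsg.Agent.H6.Ly3C.Q0
import Cfsg.Agent.H6.Ly3C.Q1
set_option autoImplicit false
set_option maxRecDepth 100000
set_option Elab.async false
set_option linter.all false
namespace CfH6.Ly3C
open CfH6 CfH6.D MulAction
theorem exO : ∃ ρ : Mc3B.G →* Equiv.Perm ℕ, ∀ x < 15, ∀ p < 30800, fO (Nat.succ x) p = ρ (Mc3B.el x) p ∧ ρ (Mc3B.el x) p < 30800 :=
  tab_hom (fun x => fO (Nat.succ x)) Mc3B.hhom (by decide +kernel) (iO0) ((((((rO0).trans rO1).trans rO2).trans rO3).trans rO4).trans rO5)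
noncomputable def rhoO : Mc3B.G →* Equiv.Perm ℕ := Classical.choose exO
@[reducible] noncomputable def actO : MulAction Mc3B.G ℕ := MulAction.compHom ℕ rhoO
section
attribute [local instance] actO
theorem tb0O : Tb (fun x => fO (Nat.succ x)) 30800 15 Mc3B.el := Classical.choose_spec exO
theorem tbO : Tb fO 30800 64 Mc3D.lt := tb0O.slp (by decide) (dO0) (((sO0).trans sO1).trans sO2)
noncomputable def trO : ℕ → ℕ → ℕ := trC fO 6 63 7
theorem trsO : Trs trO Mc3D.cd 30800 := tbO.trs 7 (by decide)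
noncomputable def QO : RP := ⟨(nat_lit 30800), (nat_lit 240), (nat_lit 80), (nat_lit 12), (nat_lit 4095), (nat_lit 5), (nat_lit 31)⟩
theorem lowO : Low (⊤ : Subgroup Mc3B.G) [0] 30800 := levs_low (code := fun k => k) (ok := fun _ => 0) (Q := QO) trsO (fun _ _ => Subgroup.mem_top _) levO _ _ (by decide +kernel)
noncomputable def stO : Subgroup Mc3B.G := stabilizer _ 0
end
end CfH6.Ly3C
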