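import Cfsg.Agent.OD.Pre
import Cfsg.Agent.H6.Ly3C.F0
import Cfsg.Agent.H6.Ly3C.O
set_option autoImplicit false
set_option maxRecDepth 100000
set_option Elab.async false
set_option linter.all false
namespace CfH6.Ly3C
open CfH6 CfH6.D MulAction
theorem p0 : Rng (P.chk) 0 1496 := rng_of 0 11 88 1496 (by decide +kernel)
theorem c0 : (QO.ok && Nat.blt 0 QO.m && Nat.beq (P.chkCos QO trO 1496 LM ed 0 [nat_lit 1457, nat_lit 1458, nat_lit 1459, nat_lit 1460, nat_lit 27, nat_lit 29, nat_lit 31] 0 0 1 ct0) 0) = true := by decide +kernel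
theorem c1 : (QO.ok && Nat.blt 0 QO.m && Nat.beq (P.chkCos QO trO 1496 LM ed 1 [nat_lit 24, nat_lit 28, nat_lit 30, nat_lit 32, nat_lit 34] 1 0 10 ct1) 0) = true := by decide +kernel
theorem l1 : (Mc3D.QD.ok && Nat.beq (chkLevs Mc3D.QD Mc3D.trD P.cdK (P.okE 1496 1) lev1 []) 0 && Nat.beq (lev1.map Lev.c).prod 87480) = true := by decide +kernel
theorem c2 : (QO.ok && Nat.blt 0 QO.m && Nat.beq (P.chkCos QO trO 1496 LM ed 2 [nat_lit 41, nat_lit 56, nat_lit 42, nat_lit 43, nat_lit 50] 11 0 1 ct2) 0) = true := by decide +kernel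
theorem l2 : (Mc3D.QD.ok && Nat.beq (chkLevs Mc3D.QD Mc3D.trD P.cdK (P.okE 1496 2) lev2 []) 0 && Nat.beq (lev2.map Lev.c).prod 2694384000) = true := by decide +kernel
theorem c3 : (QO.ok && Nat.blt 0 QO.m && Nat.beq (P.chkCos QO trO 1496 LM ed 3 [nat_lit 77, nat_lit 108, nat_lit 58, nat_lit 65] 12 0 16 ct3) 0) = true := by decide +kernel
theorem l3 : (Mc3D.QD.ok && Nat.beq (chkLevs Mc3D.QD Mc3D.trD P.cdK (P.okE 1496 3) lev3 []) 0 && Nat.beq (lev3.map Lev.c).prod 5040) = true := by decide +kernel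
theorem c4 : (QO.ok && Nat.blt 0 QO.m && Nat.beq (P.chkCos QO trO 1496 LM ed 4 [nat_lit 110, nat_lit 122, nat_lit 113, nat_lit 117] 28 0 16 ct4) 0) = true := by decide +kernel
theorem l4 : (Mc3D.QD.ok && Nat.beq (chkLevs Mc3D.QD Mc3D.trD P.cdK (P.okE 1496 4) lev4 []) 0 && Nat.beq (lev4.map Lev.c).prod 5040) = true := by decide +kernel
theorem c5 : (QO.ok && Nat.blt 0 QO.m && Nat.beq (P.chkCos QO trO 1496 LM ed 5 [nat_lit 157, nat_lit 164, nat_lit 179, nat_lit 153] 44 0 67 ct5) 0) = true := by decide +kernel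
end CfH6.Ly3C
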