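import Cfsg.Agent.OD.Pre
import Cfsg.Agent.H6.Ly3C.F0
import Cfsg.Agent.H6.Ly3C.O
set_option autoImplicit false
set_option maxRecDepth 100000
set_option Elab.async false
set_option linter.all false
namespace CfH6.Ly3C
open CfH6 CfH6.D MulAction
theorem l5 : (Mc3D.QD.ok && Nat.beq (chkLevs Mc3D.QD Mc3D.trD P.cdK (P.okE 1496 5) lev5 []) 0 && Nat.beq (lev5.map Lev.c).prod 720) = true := by decide +kernel
theorem c6 : (QO.ok && Nat.blt 0 QO.m && Nat.beq (P.chkCos QO trO 1496 LM ed 6 [nat_lit 220, nat_lit 405, nat_lit 211] 111 0 108 ct6) 0) = true := by decide +kernel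
theorem l6 : (Mc3D.QD.ok && Nat.beq (chkLevs Mc3D.QD Mc3D.trD P.cdK (P.okE 1496 6) lev6 []) 0 && Nat.beq (lev6.map Lev.c).prod 375) = true := by decide +kernel
theorem c7 : (QO.ok && Nat.blt 0 QO.m && Nat.beq (P.chkCos QO trO 1496 LM ed 7 [nat_lit 811, nat_lit 1068, nat_lit 816] 219 0 108 ct7) 0) = true := by decide +kernel
theorem l7 : (Mc3D.QD.ok && Nat.beq (chkLevs Mc3D.QD Mc3D.trD P.cdK (P.okE 1496 7) lev7 []) 0 && Nat.beq (lev7.map Lev.c).prod 375) = true := by decide +kernel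
theorem lB : (Mc3D.QD.ok && Nat.beq (chkLevs Mc3D.QD Mc3D.trD P.cdK (P.okP 1496 trO) levB []) 0 && Nat.beq (levB.map Lev.c).prod 87480) = true := by decide +kernel
end CfH6.Ly3C
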